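import Mathlib
import Cfsg.Agent.Loc.XP3

/-! The extraspecial group of order `p ^ 3` and exponent `p` in coordinates. -/

set_option autoImplicit false
set_option linter.unusedSectionVars false

namespace Cfsg.Agent.RV

open Matrix Cfsg.Agent.Cl.L2 Cfsg.Agent.Loc.H78

/-- Vectors of the plane. -/
abbrev V2 (p : ℕ) := Fin 2 → ZMod p

variable {p : ℕ} [hp : Fact p.Prime]

/-- The alternating form. -/
def om (v w : V2 p) : ZMod p := v 0 * w 1 - v 1 * w 0

theorem om_mulVec (M : M2 (ZMod p)) (v w : V2 p) : om (M *ᵥ v) (M *ᵥ w) = M.det * om v w := by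
  simp [om, mulVec, dotProduct, Fin.sum_univ_two, det_fin_two]; ring

theorem om_smul_left (t : ZMod p) (v w : V2 p) : om (t • v) w = t * om v w := by
  simp [om]; ring

theorem om_smul_right (t : ZMod p) (v w : V2 p) : om v (t • w) = t * om v w := by
  simp [om]; ring

theorem om_self (v : V2 p) : om v v = 0 := by simp [om]; ring

theorem om_comm (v w : V2 p) : om v w = -om w v := by simp [om]; ring

theorem v2_ext {v w : V2 p} (h0 : v 0 = w 0) (h1 : v 1 = w 1) : v = w := by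
  ext i; fin_cases i <;> assumption

theorem v2_ne {v : V2 p} (h : v ≠ 0) : v 0 ≠ 0 ∨ v 1 ≠ 0 := by
  by_contra hh
  push Not at hh
  exact h (v2_ext hh.1 hh.2)

theorem exists_smul_of_om {v w : V2 p} (hv : v ≠ 0) (h : om v w = 0) : ∃ t : ZMod p, w = t • v := by
  unfold om at h
  rcases v2_ne hv with h0 | h0
  · exact ⟨w 0 / v 0, v2_ext (by simp; field_simp) (by simp; field_simp; linear_combination h)⟩
  · exact ⟨w 1 / v 1, v2_ext (by simp; field_simp; linear_combination -h) (by simp; field_simp)⟩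

theorem exists_om {v : V2 p} (hv : v ≠ 0) (c : ZMod p) : ∃ s, om s v = c := by
  rcases v2_ne hv with h0 | h0
  · exact ⟨![0, -c / v 0], by simp [om]; field_simp⟩
  · exact ⟨![c / v 1, 0], by simp [om]; field_simp⟩

theorem exists_comb {v w : V2 p} (h : om v w ≠ 0) (u : V2 p) :
    ∃ a b : ZMod p, u = a • v + b • w := by
  refine ⟨om u w / om v w, om v u / om v w, v2_ext ?_ ?_⟩ <;>
    simp only [Pi.add_apply, Pi.smul_apply, smul_eq_mul] <;> field_simp <;> simp only [om] <;> ring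

theorem two_ne (h : p ≠ 2) : (2 : ZMod p) ≠ 0 := fun e =>
  h ((Nat.prime_dvd_prime_iff_eq hp.out Nat.prime_two).1
    ((ZMod.natCast_eq_zero_iff 2 p).1 (by exact_mod_cast e)))

/-- The Heisenberg group. -/
@[ext] structure Hs (p : ℕ) where
  v : V2 p
  c : ZMod p

namespace Hs

instance : Mul (Hs p) := ⟨fun x y => ⟨x.v + y.v, x.c + y.c + om x.v y.v⟩⟩
instance : One (Hs p) := ⟨⟨0, 0⟩⟩
instance : Inv (Hs p) := ⟨fun x => ⟨-x.v, -x.c⟩⟩

@[simp] theorem mul_v (x y : Hs p) : (x * y).v = x.v + y.v := rfl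
@[simp] theorem mul_c (x y : Hs p) : (x * y).c = x.c + y.c + om x.v y.v := rfl
@[simp] theorem one_v : (1 : Hs p).v = 0 := rfl
@[simp] theorem one_c : (1 : Hs p).c = 0 := rfl
@[simp] theorem inv_v (x : Hs p) : x⁻¹.v = -x.v := rfl
@[simp] theorem inv_c (x : Hs p) : x⁻¹.c = -x.c := rfl

instance : Group (Hs p) := Group.ofLeftAxioms
  (fun x y z => Hs.ext (by simp [add_assoc]) (by simp [om]; ring))
  (fun x => Hs.ext (by simp) (by simp [om])) fun x => Hs.ext (by simp) (by simp [om]; ring)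

/-- The underlying product. -/
def equiv : Hs p ≃ V2 p × ZMod p where
  toFun x := (x.v, x.c)
  invFun y := ⟨y.1, y.2⟩

instance : Finite (Hs p) := Finite.of_equiv _ equiv.symm

theorem card : Nat.card (Hs p) = p ^ 3 := by
  rw [Nat.card_congr equiv]; simp; ring

theorem isPGroup : IsPGroup p (Hs p) := .of_card card

theorem isPGroup_top : IsPGroup p (⊤ : Subgroup (Hs p)) := isPGroup.to_subgroup _

theorem conj_eq (s x : Hs p) : s * x * s⁻¹ = ⟨x.v, x.c + 2 * om s.v x.v⟩ :=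
  Hs.ext (by simp) (by simp [om]; ring)

theorem comm_iff (h : p ≠ 2) {x y : Hs p} : x * y = y * x ↔ om x.v y.v = 0 := by
  rw [Hs.ext_iff]
  simp only [mul_v, mul_c, add_comm x.v, true_and, om_comm y.v]
  constructor
  · intro e
    exact (mul_eq_zero.1 (by linear_combination e)).resolve_left (two_ne h)
  · intro e; rw [e]; ring

theorem pow_eq (x : Hs p) (n : ℕ) : x ^ n = ⟨(n : ZMod p) • x.v, n * x.c⟩ := by
  induction n with
  | zero => ext <;> simp
  | succ n ih =>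
    rw [pow_succ, ih]
    exact Hs.ext (by simp [add_smul]) (by simp [om_smul_left, om_self]; ring)

theorem zp_eq (x : Hs p) (t : ZMod p) : zp x t = ⟨t • x.v, t * x.c⟩ := by
  rw [zp, pow_eq, ZMod.natCast_zmod_val]

theorem pow_p (x : Hs p) : x ^ p = 1 := by
  rw [pow_eq]; ext <;> simp

end Hs

/-- The automorphism given by a matrix. -/
def am (M : M2 (ZMod p)) (x : Hs p) : Hs p := ⟨M *ᵥ x.v, M.det * x.c⟩

@[simp] theorem am_v (M : M2 (ZMod p)) (x : Hs p) : (am M x).v = M *ᵥ x.v := rfl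
@[simp] theorem am_c (M : M2 (ZMod p)) (x : Hs p) : (am M x).c = M.det * x.c := rfl

theorem am_mul (M : M2 (ZMod p)) (x y : Hs p) : am M (x * y) = am M x * am M y :=
  Hs.ext (mulVec_add M x.v y.v) (by simp only [am_c, am_v, Hs.mul_c, om_mulVec]; ring)

theorem am_am (M N : M2 (ZMod p)) (x : Hs p) : am M (am N x) = am (M * N) x :=
  Hs.ext (mulVec_mulVec x.v M N) (by simp [mul_assoc])

theorem am_one (x : Hs p) : am 1 x = x := Hs.ext (by simp) (by simp)

theorem am_inv {M : M2 (ZMod p)} (h : M.det ≠ 0) (x : Hs p) : am M⁻¹ (am M x) = x := by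
  rw [am_am, nonsing_inv_mul _ h.isUnit, am_one]

theorem am_inv' {M : M2 (ZMod p)} (h : M.det ≠ 0) (x : Hs p) : am M (am M⁻¹ x) = x := by
  rw [am_am, mul_nonsing_inv _ h.isUnit, am_one]

/-- An injective endomorphism is a matrix automorphism followed by a conjugation. -/
theorem exists_am (h2 : p ≠ 2) {f : Hs p → Hs p} (hf : ∀ x y, f (x * y) = f x * f y)
    (hi : ∀ x, f x = 1 → x = 1) : ∃ M : M2 (ZMod p), M.det ≠ 0 ∧ ∃ s, ∀ x, f x = s * am M x * s⁻¹ := by
  let φ := MonoidHom.mk' f hf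
  have hz : ∀ x (t : ZMod p), f (zp x t) = zp (f x) t := fun x t => map_pow φ x _
  obtain ⟨A, hA⟩ : ∃ A, f ⟨![1, 0], 0⟩ = A := ⟨_, rfl⟩
  obtain ⟨B, hB⟩ : ∃ B, f ⟨![0, 1], 0⟩ = B := ⟨_, rfl⟩
  let M : M2 (ZMod p) := !![A.v 0, B.v 0; A.v 1, B.v 1]
  have hd : M.det = om A.v B.v := by simp [M, det_fin_two, om]; ring
  have h1 : f ⟨0, 2⟩ = ⟨0, 2 * M.det⟩ := by
    have e : (⟨0, 2⟩ : Hs p) = ⟨![1, 0], 0⟩ * ⟨![0, 1], 0⟩ * (⟨![1, 0], 0⟩ : Hs p)⁻¹ *
        (⟨![0, 1], 0⟩ : Hs p)⁻¹ := by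
      rw [Hs.conj_eq]; exact Hs.ext (v2_ext (by simp) (by simp)) (by simp [om])
    have := congrArg φ e
    simp only [map_mul, map_inv] at this
    change f _ = f _ * f _ * (f _)⁻¹ * (f _)⁻¹ at this
    rw [this, hA, hB, Hs.conj_eq, hd]
    exact Hs.ext (by simp) (by simp [om]; ring)
  have := two_ne h2
  have h3 : ∀ c, f ⟨0, c⟩ = ⟨0, M.det * c⟩ := fun c => by
    have e := hz ⟨0, 2⟩ (c / 2)
    rw [h1, Hs.zp_eq, Hs.zp_eq] at e
    simp only [smul_zero, div_mul_cancel₀ _ this] at e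
    rw [e]; congr 1; field_simp
  have h0 : M.det ≠ 0 := fun e => by
    have := hi ⟨0, 1⟩ (by rw [h3, e]; ext <;> simp)
    simpa using congrArg Hs.c this
  refine ⟨M, h0, ⟨M *ᵥ ![B.c / (2 * M.det), -A.c / (2 * M.det)], 0⟩, fun x => ?_⟩
  have e : x = zp ⟨![1, 0], 0⟩ (x.v 0) * zp ⟨![0, 1], 0⟩ (x.v 1) * ⟨0, x.c - x.v 0 * x.v 1⟩ := by
    rw [Hs.zp_eq, Hs.zp_eq]
    exact Hs.ext (v2_ext (by simp) (by simp)) (by simp [om])
  rw [Hs.conj_eq]
  conv_lhs => rw [e, hf, hf, hz, hz, h3, Hs.zp_eq, Hs.zp_eq, hA, hB]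
  refine Hs.ext (v2_ext ?_ ?_) ?_
  · simp [M, mulVec, dotProduct, Fin.sum_univ_two]; ring
  · simp [M, mulVec, dotProduct, Fin.sum_univ_two]; ring
  · simp only [Hs.mul_c, Hs.mul_v, am_v, am_c, om_mulVec, om_smul_left, om_smul_right, ← hd]
    simp [om]
    field_simp
    ring

section Hom
variable {G : Type*} [Group G]

theorem pow_swap {A B Y : G} (h : B * A = A * B * Y) (ha : Commute Y A) (hb : Commute Y B) (m n : ℕ) :
    B ^ n * A ^ m = A ^ m * B ^ n * Y ^ (m * n) := by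
  have h1 : ∀ m : ℕ, B * A ^ m = A ^ m * B * Y ^ m := fun m => by
    induction m with
    | zero => simp
    | succ m ih =>
      rw [pow_succ, ← mul_assoc, ih, mul_assoc _ _ A, (ha.pow_left m).eq, ← mul_assoc,
        mul_assoc _ B, h, pow_succ' Y]
      group
  induction n with
  | zero => simp
  | succ n ih =>
    rw [pow_succ', mul_assoc, ih, ← mul_assoc, ← mul_assoc, h1, mul_assoc _ (Y ^ m),
      (hb.pow_pow m n).eq, mul_add, mul_one, add_comm (m * n), pow_add]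
    group

/-- An embedding of the Heisenberg group from two generators. -/
theorem exists_emb (h2 : p ≠ 2) {A B Z : G} (hA : A ^ p = 1) (hB : B ^ p = 1) (hZ : Z ^ p = 1)
    (h1 : Z ≠ 1) (ha : Commute Z A) (hb : Commute Z B) (h : A * B = B * A * (Z * Z)) :
    ∃ ι : Hs p →* G, Function.Injective ι ∧
      ∀ x, ι x = zp A (x.v 0) * zp B (x.v 1) * zp Z (x.c - x.v 0 * x.v 1) := by
  have hc : ∀ i j : ZMod p, Commute (zp Z i) (zp A j) := fun i j => ha.pow_pow _ _
  have hd : ∀ i j : ZMod p, Commute (zp Z i) (zp B j) := fun i j => hb.pow_pow _ _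
  have e2 : zp Z (-2 : ZMod p) = (Z * Z)⁻¹ := by
    rw [show (-2 : ZMod p) = -1 + -1 by ring, zp_add hZ, zp_neg_one hZ, _root_.mul_inv_rev]
  have hs : ∀ i j : ZMod p, zp B j * zp A i = zp A i * zp B j * zp Z (-2 * i * j) := fun i j => by
    rw [zp_mul hZ, zp_mul hZ, zp, zp, zp, zp, ← pow_mul]
    refine pow_swap (by rw [e2, h]; group) ?_ ?_ _ _
    · simpa [zp_one] using hc (-2) 1
    · simpa [zp_one] using hd (-2) 1
  let ι : Hs p →* G := MonoidHom.mk'
    (fun x => zp A (x.v 0) * zp B (x.v 1) * zp Z (x.c - x.v 0 * x.v 1)) fun x y => by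
      have e : (x * y).c - (x * y).v 0 * (x * y).v 1 = -2 * y.v 0 * x.v 1 +
          ((x.c - x.v 0 * x.v 1) + (y.c - y.v 0 * y.v 1)) := by simp [om]; ring
      rw [e]
      simp only [Hs.mul_v, Pi.add_apply, zp_add hA, zp_add hB, zp_add hZ]
      generalize x.c - x.v 0 * x.v 1 = s
      generalize y.c - y.v 0 * y.v 1 = t
      calc _ = zp A (x.v 0) * (zp A (y.v 0) * zp B (x.v 1) * zp Z (-2 * y.v 0 * x.v 1)) *
            (zp B (y.v 1) * zp Z s) * zp Z t := by
            simp only [mul_assoc]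
            rw [← mul_assoc (zp B (y.v 1)), ← (hd _ _).eq, mul_assoc]
        _ = _ := by
            rw [← hs, ← (hd _ _).eq]
            simp only [mul_assoc]
            rw [← mul_assoc (zp Z s) (zp A _), (hc _ _).eq, mul_assoc]
  have ho : orderOf Z = p := orderOf_eq_prime hZ h1
  have hz : ∀ c, ι ⟨0, c⟩ = 1 → c = 0 := fun c e => zp_injective ho (by
    simpa [ι, zp_zero] using e)
  refine ⟨ι, (injective_iff_map_eq_one ι).2 fun x hx => ?_, fun _ => rfl⟩
  by_cases hv : x.v = 0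
  · exact Hs.ext hv (hz _ (by rw [← hx, ← hv]))
  obtain ⟨s, hs⟩ := exists_om hv 1
  have e : (⟨0, 2⟩ : Hs p) = ⟨s, 0⟩ * x * (⟨s, 0⟩ : Hs p)⁻¹ * x⁻¹ := by
    rw [Hs.conj_eq]; exact Hs.ext (by simp) (by simp [hs]; simp [om]; ring)
  exact absurd (hz 2 (by rw [e]; simp [hx])) (two_ne h2)

theorem exists_sqrt (h2 : p ≠ 2) {C : G} (hC : C ^ p = 1) :
    ∃ n : ℕ, C ^ n * C ^ n = C := by
  obtain ⟨k, hk⟩ := hp.out.odd_of_ne_two h2
  refine ⟨k + 1, ?_⟩
  rw [← pow_add, show k + 1 + (k + 1) = p + 1 by omega, pow_succ, hC, one_mul]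

/-- The same from a noncommuting pair with central commutator. -/
theorem exists_emb' (h2 : p ≠ 2) {A B : G} (hA : A ^ p = 1) (hB : B ^ p = 1)
    (hZ : (A⁻¹ * B⁻¹ * A * B) ^ p = 1) (h1 : A * B ≠ B * A) (ha : Commute (A⁻¹ * B⁻¹ * A * B) A)
    (hb : Commute (A⁻¹ * B⁻¹ * A * B) B) :
    ∃ (ι : Hs p →* G) (n : ℕ), Function.Injective ι ∧ ∀ x, ι x = zp A (x.v 0) * zp B (x.v 1) *
      zp ((A⁻¹ * B⁻¹ * A * B) ^ n) (x.c - x.v 0 * x.v 1) := by
  obtain ⟨n, hn⟩ := exists_sqrt h2 hZ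
  obtain ⟨ι, h⟩ := exists_emb h2 hA hB (Z := (A⁻¹ * B⁻¹ * A * B) ^ n)
    (by rw [← pow_mul, mul_comm, pow_mul, hZ, one_pow]) (fun e => h1 (by
      rw [e, one_mul] at hn
      calc A * B = B * A * (A⁻¹ * B⁻¹ * A * B) := by group
        _ = _ := by rw [← hn, mul_one])) (ha.pow_left n) (hb.pow_left n) (by rw [hn]; group)
  exact ⟨ι, n, h⟩

theorem nonempty_equiv (h2 : p ≠ 2) [Finite G] (hE : IsExtraspecial p G) (hc : Nat.card G = p ^ 3)
    (he : ∀ x : G, x ^ p = 1) : Nonempty (G ≃* Hs p) := by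
  have : ∃ A B : G, A * B ≠ B * A := by
    by_contra hh
    push Not at hh
    have h1 : commutator G = ⊥ := by
      rw [commutator_def, Subgroup.commutator_eq_bot_iff_le_centralizer]
      exact fun x _ y _ => hh y x
    have := hE.2
    rw [← hE.1.2.2, h1, Subgroup.card_bot] at this
    exact hp.out.ne_one this.symm
  obtain ⟨A, B, h⟩ := this
  have hz : A⁻¹ * B⁻¹ * A * B ∈ Subgroup.center G := by
    rw [← hE.1.2.2]
    simpa [commutatorElement_def, commutator_def] using Subgroup.commutator_mem_commutator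
      (Subgroup.mem_top A⁻¹) (Subgroup.mem_top B⁻¹)
  rw [Subgroup.mem_center_iff] at hz
  obtain ⟨ι, -, hι, -⟩ := exists_emb' h2 (he A) (he B) (he _) h (hz A).symm (hz B).symm
  exact ⟨(MulEquiv.ofBijective ι (hι.bijective_of_nat_card_le (by rw [hc, Hs.card]))).symm⟩

end Hom

end Cfsg.Agent.RV
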